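import Cfsg.Agent.H691.L34.Def

/-!
# S5917, row M2 (helper745): the dimensions of the adjoint module (type 16) of `SL₃(4)` over `ZMod 2`
-/

set_option autoImplicit false

namespace Cfsg.Agent.H745.L34

open Matrix Cfsg.Agent.H691.L34

section field
variable {F : Type} [Field F] [Fintype F]

theorem two0 (hF : Fintype.card F = 4) : (2 : F) = 0 := by
  have h := FiniteField.cast_card_eq_zero F
  have h2 : ((Fintype.card F : ℕ) : F) = 2 * 2 := by rw [hF]; norm_num
  rw [h2] at h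
  exact (mul_self_eq_zero.1 h)

theorem pow3 (hF : Fintype.card F = 4) {x : F} (hx : x ≠ 0) : x ^ 3 = 1 := by
  have h := FiniteField.pow_card_sub_one_eq_one x hx
  rwa [hF] at h

/-- the matrix with the columns `v, g v, g² v` -/
def Q (g : M3 F) (v : Fin 3 → F) : M3 F := (Matrix.of ![v, g *ᵥ v, g *ᵥ (g *ᵥ v)])ᵀ

theorem Q_mulVec (g : M3 F) (v x : Fin 3 → F) :
    Q g v *ᵥ x = x 0 • v + x 1 • (g *ᵥ v) + x 2 • (g *ᵥ (g *ᵥ v)) := by
  ext i
  simp [Q, Matrix.mulVec, dotProduct, Fin.sum_univ_three]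
  ring

/-- the commutant of a matrix with a cyclic vector -/
theorem cyc_card (g : M3 F) (v : Fin 3 → F) (h : (Q g v).det ≠ 0) :
    Nat.card {X : M3 F // g * X = X * g} = Fintype.card F ^ 3 := by
  have hu : IsUnit (Q g v) := (Matrix.isUnit_iff_isUnit_det _).2 (isUnit_iff_ne_zero.2 h)
  have hb : Function.Bijective (fun X : {X : M3 F // g * X = X * g} => X.1 *ᵥ v) := by
    constructor
    · intro X Y hXY
      have e0 : X.1 *ᵥ v = Y.1 *ᵥ v := hXY
      have hc : ∀ (Z : {X : M3 F // g * X = X * g}) u, Z.1 *ᵥ (g *ᵥ u) = g *ᵥ (Z.1 *ᵥ u) := fun Z u => by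
        rw [Matrix.mulVec_mulVec, Matrix.mulVec_mulVec, Z.2]
      have e1 : X.1 *ᵥ (g *ᵥ v) = Y.1 *ᵥ (g *ᵥ v) := by rw [hc, hc, e0]
      have e2 : X.1 *ᵥ (g *ᵥ (g *ᵥ v)) = Y.1 *ᵥ (g *ᵥ (g *ᵥ v)) := by
        rw [hc X (g *ᵥ v), hc Y (g *ᵥ v), e1]
      have e3 : X.1 * Q g v = Y.1 * Q g v := by
        apply Matrix.toLin'.injective
        apply LinearMap.ext
        intro x
        rw [Matrix.toLin'_apply, Matrix.toLin'_apply, ← Matrix.mulVec_mulVec, ← Matrix.mulVec_mulVec, Q_mulVec]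
        simp only [Matrix.mulVec_add, Matrix.mulVec_smul, e0, e1, e2]
      exact Subtype.ext (hu.mul_left_injective e3)
    · intro u
      obtain ⟨x, hx⟩ := (Matrix.mulVec_surjective_iff_isUnit.2 hu) u
      have hc : g * (x 0 • (1 : M3 F) + x 1 • g + x 2 • (g * g)) = (x 0 • (1 : M3 F) + x 1 • g + x 2 • (g * g)) * g := by
        simp only [Matrix.mul_add, Matrix.add_mul, Matrix.mul_smul, Matrix.smul_mul, Matrix.one_mul,
          Matrix.mul_one, Matrix.mul_assoc]
      refine ⟨⟨_, hc⟩, ?_⟩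
      rw [← hx, Q_mulVec]
      simp only [Matrix.add_mulVec, Matrix.smul_mulVec, Matrix.one_mulVec, ← Matrix.mulVec_mulVec]
  rw [Nat.card_congr (Equiv.ofBijective _ hb), Nat.card_eq_fintype_card, Fintype.card_fun, Fintype.card_fin]

theorem Q_conj {g P h : M3 F} (hP : g * P = P * h) (x : Fin 3 → F) : Q g (P *ᵥ x) = P * Q h x := by
  have e1 : g *ᵥ (P *ᵥ x) = P *ᵥ (h *ᵥ x) := by rw [Matrix.mulVec_mulVec, hP, ← Matrix.mulVec_mulVec]
  have e2 : g *ᵥ (P *ᵥ (h *ᵥ x)) = P *ᵥ (h *ᵥ (h *ᵥ x)) := by rw [Matrix.mulVec_mulVec, hP, ← Matrix.mulVec_mulVec]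
  ext i j
  rw [Matrix.mul_apply]
  unfold Q
  rw [e1, e2]
  fin_cases j <;> rfl

theorem ns_exists {g : M3 F} (hns : ∀ c : F, g ≠ c • 1) :
    ∃ v w : Fin 3 → F, (Matrix.of ![v, g *ᵥ v, w]).det ≠ 0 := by
  by_contra hcon
  push Not at hcon
  have h1 := hcon ![1, 0, 0] ![0, 1, 0]
  have h2 := hcon ![1, 0, 0] ![0, 0, 1]
  have h3 := hcon ![0, 1, 0] ![1, 0, 0]
  have h4 := hcon ![0, 1, 0] ![0, 0, 1]
  have h5 := hcon ![0, 0, 1] ![1, 0, 0]
  have h6 := hcon ![0, 0, 1] ![0, 1, 0]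
  have h7 := hcon ![1, 1, 0] ![0, 0, 1]
  have h8 := hcon ![0, 1, 1] ![1, 0, 0]
  simp [Matrix.det_fin_three, Matrix.mulVec, dotProduct, Fin.sum_univ_three] at h1 h2 h3 h4 h5 h6 h7 h8
  apply hns (g 0 0)
  ext i j
  have h7' := sub_eq_zero.1 h7
  have h8' := sub_eq_zero.1 h8
  fin_cases i <;> fin_cases j <;> simp_all

theorem cyc_exists (hF : Fintype.card F = 4) {g : M3 F} (hdet : g.det = 1) {n : ℕ} (hn : n = 3 ∨ n = 5 ∨ n = 7)
    (hg : g ^ n = 1) (hns : ∀ c : F, g ≠ c • 1) : ∃ v, (Q g v).det ≠ 0 := by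
  by_contra hcon
  push Not at hcon
  have t0 := two0 hF
  obtain ⟨v, w, hvw⟩ := ns_exists hns
  set P : M3 F := (Matrix.of ![v, g *ᵥ v, w])ᵀ with hPd
  have hPdet : P.det ≠ 0 := by rw [hPd, Matrix.det_transpose]; exact hvw
  have hPu : IsUnit P.det := isUnit_iff_ne_zero.2 hPdet
  set h : M3 F := P⁻¹ * g * P with hh
  have hgP : g * P = P * h := by
    rw [hh, ← Matrix.mul_assoc, ← Matrix.mul_assoc, Matrix.mul_nonsing_inv _ hPu, Matrix.one_mul]
  have hinj : ∀ x y : Fin 3 → F, P *ᵥ x = P *ᵥ y → x = y := fun x y hxy => by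
    have := congrArg (fun z => P⁻¹ *ᵥ z) hxy
    simpa [Matrix.mulVec_mulVec, Matrix.nonsing_inv_mul _ hPu] using this
  have p0 : P *ᵥ ![1, 0, 0] = v := by
    ext i
    simp [hPd, Matrix.mulVec, dotProduct, Fin.sum_univ_three]
  have p1 : P *ᵥ ![0, 1, 0] = g *ᵥ v := by
    ext i
    rw [Matrix.mulVec, dotProduct, Fin.sum_univ_three]
    simp [hPd]
  have c0 : h *ᵥ ![1, 0, 0] = ![0, 1, 0] := by
    apply hinj
    rw [Matrix.mulVec_mulVec, ← hgP, ← Matrix.mulVec_mulVec, p0, p1]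
  have hQ : ∀ x, (Q h x).det = 0 := fun x => by
    have h1 := hcon (P *ᵥ x)
    rw [Q_conj hgP, Matrix.det_mul] at h1
    exact (mul_eq_zero.1 h1).resolve_left hPdet
  have hdh : h.det = 1 := by
    have h1 := congrArg Matrix.det hgP
    rw [Matrix.det_mul, Matrix.det_mul, hdet, one_mul] at h1
    have h2 : P.det * h.det = P.det * 1 := by rw [mul_one]; exact h1.symm
    exact mul_left_cancel₀ hPdet h2
  have q00 : h 0 0 = 0 := by
    have := congrFun c0 0
    simpa [Matrix.mulVec, dotProduct, Fin.sum_univ_three] using this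
  have q10 : h 1 0 = 1 := by
    have := congrFun c0 1
    simpa [Matrix.mulVec, dotProduct, Fin.sum_univ_three] using this
  have q20 : h 2 0 = 0 := by
    have := congrFun c0 2
    simpa [Matrix.mulVec, dotProduct, Fin.sum_univ_three] using this
  have q21 : h 2 1 = 0 := by
    have := hQ ![1, 0, 0]
    simpa [-Matrix.mulVec_mulVec, Q, Matrix.det_fin_three, Matrix.mulVec, dotProduct, Fin.sum_univ_three, q00, q10,
      q20] using this
  set a := h 0 1 with ha
  set b := h 1 1 with hb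
  set c := h 0 2 with hc
  set d := h 1 2 with hd
  set e := h 2 2 with he
  have hm : h = !![0, a, c; 1, b, d; 0, 0, e] := by
    ext i j
    fin_cases i <;> fin_cases j
    · exact q00
    · rfl
    · rfl
    · exact q10
    · rfl
    · rfl
    · exact q20
    · exact q21
    · rfl
  have hae : -(a * e) = 1 := by
    rw [hm, Matrix.det_fin_three] at hdh
    simpa using hdh
  have e0 : e ≠ 0 := by
    rintro h0
    rw [h0, mul_zero, neg_zero] at hae
    exact zero_ne_one hae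
  have e3 : e ^ 3 = 1 := pow3 hF e0
  have key : ∀ x y : F, (a * y + c - e * x) ^ 2 + b * (a * y + c - e * x) * (x + b * y + d - e * y)
      - a * (x + b * y + d - e * y) ^ 2 = 0 := fun x y => by
    have h1 := hQ ![x, y, 1]
    rw [hm] at h1
    simp only [Q, Matrix.det_fin_three, Matrix.mulVec, dotProduct, Fin.sum_univ_three, Matrix.transpose_apply,
      Matrix.of_apply, Matrix.cons_val_zero, Matrix.cons_val_one, Matrix.cons_val] at h1
    linear_combination h1
  have hD : a + e * b - e ^ 2 = 0 := by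
    by_contra hD
    have h1 := key (-d - b * ((1 - c - e * d) / (a + e * b - e ^ 2)) + e * ((1 - c - e * d) / (a + e * b - e ^ 2)))
      ((1 - c - e * d) / (a + e * b - e ^ 2))
    set y := (1 - c - e * d) / (a + e * b - e ^ 2) with hy
    have hy' : (a + e * b - e ^ 2) * y = 1 - c - e * d := by rw [hy]; field_simp
    have h2 : a * y + c - e * (-d - b * y + e * y) = 1 := by linear_combination hy'
    have h3 : (-d - b * y + e * y) + b * y + d - e * y = 0 := by ring
    rw [h2, h3] at h1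
    simp at h1
  have hb0 : b = 0 := by
    have h1 : e ^ 2 * b = 0 := by linear_combination e * hD + hae + e3 + t0 - t0 + t0
    exact (mul_eq_zero.1 h1).resolve_left (pow_ne_zero 2 e0)
  have ha2 : a = e ^ 2 := by linear_combination hD - e * hb0
  have h4 : h ^ 4 = e • (1 : M3 F) := by
    have hsq : h * h = !![e ^ 2, 0, e ^ 2 * d + c * e; 0, e ^ 2, c + d * e; 0, 0, e ^ 2] := by
      rw [hm, ha2, hb0]
      ext i j
      fin_cases i <;> fin_cases j <;> simp [Matrix.mul_apply, Fin.sum_univ_three] <;> ring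
    have : h ^ 4 = (h * h) * (h * h) := by noncomm_ring
    rw [this, hsq]
    have e4 : e ^ 4 = e := by linear_combination e * e3
    ext i j
    fin_cases i <;> fin_cases j <;> simp [Matrix.mul_apply, Fin.sum_univ_three]
    · linear_combination e4
    · linear_combination (e ^ 2 * (e ^ 2 * d + c * e)) * t0
    · linear_combination e4
    · linear_combination (e ^ 2 * (c + d * e)) * t0
    · linear_combination e4
  have hg4 : g ^ 4 = e • (1 : M3 F) := by
    have hpow : ∀ k : ℕ, g ^ k * P = P * h ^ k := fun k => by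
      induction k with
      | zero => simp
      | succ k ih => rw [pow_succ, pow_succ, Matrix.mul_assoc, hgP, ← Matrix.mul_assoc, ih, Matrix.mul_assoc]
    have h1 := hpow 4
    rw [h4, Matrix.mul_smul, Matrix.mul_one] at h1
    have h2 := congrArg (fun z => z * P⁻¹) h1
    simpa [Matrix.mul_assoc, Matrix.mul_nonsing_inv _ hPu] using h2
  rcases hn with rfl | rfl | rfl
  · apply hns e
    rw [← hg4, pow_succ, hg, one_mul]
  · apply hns (e ^ 2)
    have h1 : e • g = 1 := by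
      rw [pow_succ, hg4, Matrix.smul_mul, Matrix.one_mul] at hg
      exact hg
    have h2 : g = (e ^ 2 * e) • g := by rw [← pow_succ, e3, one_smul]
    rw [h2, mul_smul, h1]
  · apply hns (e ^ 2)
    have h1 : g ^ 8 = g := by rw [pow_succ, hg, one_mul]
    rw [← h1, show (8 : ℕ) = 4 * 2 from rfl, pow_mul, hg4, smul_pow, one_pow]

theorem card_tr (hF : Fintype.card F = 4) (S : M3 F → Prop) (hS : ∀ X (a : F), S X → S (X + a • 1)) :
    Nat.card {X : M3 F // S X} = Nat.card {X : M3 F // X.trace = 0 ∧ S X} * 4 := by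
  have t0 := two0 hF
  have tr1 : (1 : M3 F).trace = 1 := by
    rw [Matrix.trace_one, Fintype.card_fin]
    push_cast
    linear_combination t0
  have e : {X : M3 F // S X} ≃ {X : M3 F // X.trace = 0 ∧ S X} × F :=
    { toFun := fun X => (⟨X.1 + (-X.1.trace) • 1, by
        rw [Matrix.trace_add, Matrix.trace_smul, tr1, smul_eq_mul, mul_one, add_neg_cancel], hS _ _ X.2⟩, X.1.trace)
      invFun := fun Y => ⟨Y.1.1 + Y.2 • 1, hS _ _ Y.1.2.2⟩
      left_inv := fun X => Subtype.ext (by simp)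
      right_inv := fun Y => by
        have h1 : (Y.1.1 + Y.2 • (1 : M3 F)).trace = Y.2 := by
          rw [Matrix.trace_add, Matrix.trace_smul, tr1, smul_eq_mul, mul_one, Y.1.2.1, zero_add]
        apply Prod.ext
        · apply Subtype.ext
          show (Y.1.1 + Y.2 • (1 : M3 F)) + (-(Y.1.1 + Y.2 • (1 : M3 F)).trace) • 1 = Y.1.1
          rw [h1, neg_smul, add_neg_cancel_right]
        · exact h1 }
  rw [Nat.card_congr e, Nat.card_prod, Nat.card_eq_fintype_card (α := F), hF]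

end field

section adj
variable {F : Type} [Field F] {V : Type} [AddCommGroup V] [Module (ZMod 2) V]

/-- `W` is the adjoint module: traceless matrices with conjugation -/
def IsAdj (ρ : Representation (ZMod 2) (G3 F) V) (W : Submodule (ZMod 2) V) : Prop :=
  ∃ φ : M3 F → V, (∀ X Y, X.trace = 0 → Y.trace = 0 → φ (X + Y) = φ X + φ Y) ∧ (∀ X, X.trace = 0 → φ X = 0 → X = 0) ∧
    (∀ v, v ∈ W ↔ ∃ X, X.trace = 0 ∧ φ X = v) ∧
    ∀ (g : G3 F) X, X.trace = 0 → ρ g (φ X) = φ (g.1 * X * (g⁻¹ : G3 F).1)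

end adj

section dims
variable {F : Type} [Field F] [Fintype F] {V : Type} [AddCommGroup V] [Module (ZMod 2) V] [Module.Finite (ZMod 2) V]
  {ρ : Representation (ZMod 2) (G3 F) V}

theorem finrank_of_card {W : Submodule (ZMod 2) V} {n : ℕ} (h : Nat.card W = 2 ^ n) : Module.finrank (ZMod 2) W = n := by
  rw [Module.natCard_eq_pow_finrank (K := ZMod 2), Nat.card_zmod] at h
  exact Nat.pow_right_injective le_rfl h

theorem adj_dims (hF : Fintype.card F = 4) {W : Submodule (ZMod 2) V} (h : IsAdj ρ W) : Dims ρ W 16 4 4 4 := by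
  obtain ⟨φ, hadd, hker, hW, hρ⟩ := h
  have hinj : ∀ X Y, X.trace = 0 → Y.trace = 0 → φ X = φ Y → X = Y := fun X Y hX hY hXY => by
    have h1 : φ ((X - Y) + Y) = φ (X - Y) + φ Y := hadd _ _ (by rw [Matrix.trace_sub, hX, hY, sub_zero]) hY
    rw [sub_add_cancel, hXY, eq_comm, add_eq_right] at h1
    exact sub_eq_zero.1 (hker _ (by rw [Matrix.trace_sub, hX, hY, sub_zero]) h1)
  have htr : ∀ (g : G3 F) (X : M3 F), X.trace = 0 → (g.1 * X * (g⁻¹ : G3 F).1).trace = 0 := fun g X hX => by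
    rw [Matrix.trace_mul_comm, ← Matrix.mul_assoc]
    have : (g⁻¹ : G3 F).1 * g.1 = 1 := by
      show (g⁻¹ * g).1 = 1
      rw [inv_mul_cancel]
      rfl
    rw [this, Matrix.one_mul, hX]
  have cW : Nat.card W = 2 ^ 16 := by
    have e1 : Nat.card {X : M3 F // X.trace = 0 ∧ True} = Nat.card W := by
      apply Nat.card_congr
      refine Equiv.ofBijective (fun X => ⟨φ X.1, (hW _).2 ⟨X.1, X.2.1, rfl⟩⟩) ⟨fun X Y hXY => ?_, fun v => ?_⟩
      · exact Subtype.ext (hinj _ _ X.2.1 Y.2.1 (congrArg Subtype.val hXY))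
      · obtain ⟨X, hX, hv⟩ := (hW _).1 v.2
        exact ⟨⟨X, hX, trivial⟩, Subtype.ext hv⟩
    have e2 := card_tr hF (fun _ : M3 F => True) (fun _ _ _ => trivial)
    have e3 : Nat.card {X : M3 F // True} = 4 ^ 9 := by
      rw [Nat.card_congr (Equiv.subtypeUnivEquiv fun _ => trivial), Nat.card_eq_fintype_card]
      show Fintype.card (Fin 3 → Fin 3 → F) = _
      simp [hF]
    rw [e3, e1] at e2
    omega
  have cfx : ∀ g : G3 F, ∀ n, (n = 3 ∨ n = 5 ∨ n = 7) → g ^ n = 1 → (∀ c : F, g.1 ≠ c • 1) →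
      Module.finrank (ZMod 2) (fx ρ g W) = 4 := fun g n hn hg hns => by
    obtain ⟨v, hv⟩ := cyc_exists hF g.2 hn (by
      have := congrArg Subtype.val hg
      simpa using this) hns
    have e0 := cyc_card g.1 v hv
    have e2 := card_tr hF (fun X : M3 F => g.1 * X = X * g.1) (fun X a hX => by
      rw [Matrix.mul_add, Matrix.add_mul, hX, Matrix.mul_smul, Matrix.smul_mul, Matrix.mul_one, Matrix.one_mul])
    have hgg : g.1 * (g⁻¹ : G3 F).1 = 1 := by
      show (g * g⁻¹).1 = 1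
      rw [mul_inv_cancel]
      rfl
    have hgg' : (g⁻¹ : G3 F).1 * g.1 = 1 := by
      show (g⁻¹ * g).1 = 1
      rw [inv_mul_cancel]
      rfl
    have e1 : Nat.card {X : M3 F // X.trace = 0 ∧ g.1 * X = X * g.1} = Nat.card (fx ρ g W) := by
      apply Nat.card_congr
      refine Equiv.ofBijective (fun X => ⟨φ X.1, ⟨(hW _).2 ⟨X.1, X.2.1, rfl⟩, ?_⟩⟩) ⟨fun X Y hXY => ?_, fun v => ?_⟩
      · show φ X.1 ∈ LinearMap.ker (ρ g - LinearMap.id)
        rw [LinearMap.mem_ker, LinearMap.sub_apply, LinearMap.id_apply, hρ g X.1 X.2.1, X.2.2, Matrix.mul_assoc, hgg,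
          Matrix.mul_one, sub_self]
      · exact Subtype.ext (hinj _ _ X.2.1 Y.2.1 (congrArg Subtype.val hXY))
      · obtain ⟨X, hX, hXv⟩ := (hW _).1 v.2.1
        have h1 : (ρ g - LinearMap.id : V →ₗ[ZMod 2] V) v.1 = 0 := LinearMap.mem_ker.1 v.2.2
        rw [LinearMap.sub_apply, LinearMap.id_apply, sub_eq_zero, ← hXv, hρ g X hX] at h1
        have h2 := hinj _ _ (htr g X hX) hX h1
        refine ⟨⟨X, hX, ?_⟩, Subtype.ext hXv⟩
        have h3 : g.1 * X * (g⁻¹ : G3 F).1 * g.1 = X * g.1 := by rw [h2]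
        rwa [Matrix.mul_assoc, hgg', Matrix.mul_one] at h3
    rw [e0, e1, hF] at e2
    apply finrank_of_card
    omega
  have hc5 : ∀ (g : G3 F) (n : ℕ), (n = 5 ∨ n = 7) → orderOf g = n → ∀ c : F, g.1 ≠ c • 1 := fun g n hn hg c hgc => by
    have h1 : c ^ 3 = 1 := by
      have := g.2
      rw [hgc, Matrix.det_smul, Matrix.det_one, mul_one, Fintype.card_fin] at this
      exact this
    have h2 : g ^ 3 = 1 := by
      apply Subtype.ext
      show (g ^ 3).1 = 1
      have : (g ^ 3).1 = g.1 ^ 3 := by simp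
      rw [this, hgc, smul_pow, h1, one_pow, one_smul]
    have h3 := orderOf_dvd_of_pow_eq_one h2
    rw [hg] at h3
    rcases hn with rfl | rfl <;> omega
  have hpo : ∀ (g : G3 F) (n : ℕ), orderOf g = n → g ^ n = 1 := fun g n hg => by
    have := pow_orderOf_eq_one g
    rwa [hg] at this
  refine ⟨finrank_of_card cW, fun g hg hgc => cfx g 3 (Or.inl rfl) (hpo g _ hg) fun c hc => ?_,
    fun g hg => cfx g 5 (Or.inr (Or.inl rfl)) (hpo g _ hg) (hc5 g 5 (Or.inl rfl) hg),
    fun g hg => cfx g 7 (Or.inr (Or.inr rfl)) (hpo g _ hg) (hc5 g 7 (Or.inr rfl) hg)⟩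
  apply hgc
  rw [Subgroup.mem_center_iff]
  intro k
  apply Subtype.ext
  show k.1 * g.1 = g.1 * k.1
  rw [hc, Matrix.mul_smul, Matrix.smul_mul, Matrix.mul_one, Matrix.one_mul]

end dims

end Cfsg.Agent.H745.L34
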