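import Cfsg.Agent.H745.L34.Adj

/-!
# S5917 (helper745): the classes of the elements of order 3 (non-central), 5 and 7 of `SL₃(4)`
-/

set_option autoImplicit false

namespace Cfsg.Agent.H745.L34

open Matrix Cfsg.Agent.H691.L34

variable {F : Type} [Field F] [Fintype F]

theorem exists_w (hF : Fintype.card F = 4) : ∃ w : F, w ^ 2 + w + 1 = 0 := by
  classical
  have h2 : ∃ x : F, x ∉ ({0, 1} : Finset F) := by
    by_contra h
    push Not at h
    have h1 : Fintype.card F ≤ 2 := by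
      rw [← Finset.card_univ]
      exact (Finset.card_le_card fun x _ => h x).trans Finset.card_le_two
    omega
  obtain ⟨x, hx⟩ := h2
  rw [Finset.mem_insert, Finset.mem_singleton, not_or] at hx
  refine ⟨x, ?_⟩
  have h3 : (x - 1) * (x ^ 2 + x + 1) = 0 := by linear_combination pow3 hF hx.1
  exact (mul_eq_zero.1 h3).resolve_left (sub_ne_zero.2 hx.2)

theorem w_sq (hF : Fintype.card F = 4) {w : F} (hw : w ^ 2 + w + 1 = 0) : w ^ 2 = w + 1 := by
  linear_combination hw - (w + 1) * two0 hF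

theorem neg_eq (hF : Fintype.card F = 4) (x : F) : -x = x := by linear_combination (-x) * two0 hF

theorem F_cases (hF : Fintype.card F = 4) {w : F} (hw : w ^ 2 + w + 1 = 0) (x : F) (hx : x ≠ 0) :
    x = 1 ∨ x = w ∨ x = w ^ 2 := by
  have h := pow3 hF hx
  have h1 : (x - 1) * ((x - w) * (x - w ^ 2)) = 0 := by
    have h3 : w ^ 3 = 1 := by linear_combination (w - 1) * hw
    linear_combination h + (-x ^ 2 + x) * hw + (x - 1) * h3
  rcases mul_eq_zero.1 h1 with h | h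
  · exact Or.inl (sub_eq_zero.1 h)
  rcases mul_eq_zero.1 h with h | h
  · exact Or.inr (Or.inl (sub_eq_zero.1 h))
  · exact Or.inr (Or.inr (sub_eq_zero.1 h))

/-- conjugation in `SL₃` from a common companion matrix -/
theorem conj_of {g y : G3 F} {C P R : M3 F} (hP : P.det ≠ 0) (hR : R.det ≠ 0) (h1 : g.1 * P = P * C)
    (h2 : y.1 * R = R * C) (hz : ∀ δ : F, δ ≠ 0 → ∃ Z : M3 F, Z * y.1 = y.1 * Z ∧ Z.det = δ) :
    ∃ k : G3 F, k * g * k⁻¹ = y := by
  have hPu : IsUnit P.det := isUnit_iff_ne_zero.2 hP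
  obtain ⟨Z, hZ, hZd⟩ := hz (P.det * R.det⁻¹) (mul_ne_zero hP (inv_ne_zero hR))
  have hk : (Z * R * P⁻¹).det = 1 := by
    rw [Matrix.det_mul, Matrix.det_mul, hZd, Matrix.det_nonsing_inv, Ring.inverse_eq_inv']
    field_simp
  let k : G3 F := ⟨Z * R * P⁻¹, hk⟩
  refine ⟨k, mul_inv_eq_iff_eq_mul.2 ?_⟩
  apply Subtype.ext
  show Z * R * P⁻¹ * g.1 = y.1 * (Z * R * P⁻¹)
  have h3 : P⁻¹ * g.1 = C * P⁻¹ := by
    have h4 : P⁻¹ * (g.1 * P) * P⁻¹ = P⁻¹ * (P * C) * P⁻¹ := by rw [h1]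
    rw [← Matrix.mul_assoc P⁻¹ P C, Matrix.nonsing_inv_mul _ hPu, Matrix.one_mul, Matrix.mul_assoc, Matrix.mul_assoc,
      Matrix.mul_nonsing_inv _ hPu, Matrix.mul_one] at h4
    exact h4
  rw [Matrix.mul_assoc, h3, ← Matrix.mul_assoc, Matrix.mul_assoc Z R C, ← h2, ← Matrix.mul_assoc, hZ, Matrix.mul_assoc,
    Matrix.mul_assoc, Matrix.mul_assoc]

/-- the companion matrix -/
def comp (q r : F) : M3 F := !![0, 0, 1; 1, 0, q; 0, 1, r]

/-- every element of order 3 (non-central), 5, 7 has a companion matrix with the same power one -/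
theorem exists_comp (hF : Fintype.card F = 4) {g : G3 F} {n : ℕ} (hn : n = 3 ∨ n = 5 ∨ n = 7)
    (hg : g ^ n = 1) (hns : ∀ c : F, g.1 ≠ c • 1) :
    ∃ (P : M3 F) (q r : F), P.det ≠ 0 ∧ g.1 * P = P * comp q r ∧ comp q r ^ n = 1 := by
  have hg' : g.1 ^ n = 1 := by
    have := congrArg Subtype.val hg
    simpa using this
  obtain ⟨v, hv⟩ := cyc_exists hF g.2 hn hg' hns
  set P := Q g.1 v with hP
  have hPu : IsUnit P.det := isUnit_iff_ne_zero.2 hv
  obtain ⟨x, hx⟩ := (Matrix.mulVec_surjective_iff_isUnit.2 ((Matrix.isUnit_iff_isUnit_det _).2 hPu))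
    (g.1 *ᵥ (g.1 *ᵥ (g.1 *ᵥ v)))
  have h1 : g.1 * P = P * !![0, 0, x 0; 1, 0, x 1; 0, 1, x 2] := by
    ext i j
    have hx' := congrFun hx i
    rw [Matrix.mulVec, dotProduct, Fin.sum_univ_three] at hx'
    rw [Matrix.mul_apply (M := P), Fin.sum_univ_three]
    fin_cases j
    · show (g.1 *ᵥ v) i = _
      simp [hP, Q]
    · show (g.1 *ᵥ (g.1 *ᵥ v)) i = _
      simp [hP, Q]
    · show (g.1 *ᵥ (g.1 *ᵥ (g.1 *ᵥ v))) i = _
      rw [← hx']
      simp
  have h2 : x 0 = 1 := by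
    have h3 := congrArg Matrix.det h1
    rw [Matrix.det_mul, Matrix.det_mul, g.2, one_mul] at h3
    have h4 : P.det * 1 = P.det * (!![0, 0, x 0; 1, 0, x 1; 0, 1, x 2] : M3 F).det := by rw [mul_one]; exact h3
    have h5 := mul_left_cancel₀ hv h4
    rw [Matrix.det_fin_three] at h5
    simpa using h5.symm
  rw [h2] at h1
  refine ⟨P, x 1, x 2, hv, h1, ?_⟩
  have hpow : ∀ k : ℕ, g.1 ^ k * P = P * comp (x 1) (x 2) ^ k := fun k => by
    induction k with
    | zero => simp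
    | succ k ih => rw [pow_succ, pow_succ, Matrix.mul_assoc, show g.1 * P = P * comp (x 1) (x 2) from h1,
        ← Matrix.mul_assoc, ih, Matrix.mul_assoc]
  have h3 := hpow n
  rw [hg', Matrix.one_mul] at h3
  have h4 : P⁻¹ * P = P⁻¹ * (P * comp (x 1) (x 2) ^ n) := by rw [← h3]
  rw [← Matrix.mul_assoc, Matrix.nonsing_inv_mul _ hPu, Matrix.one_mul] at h4
  exact h4.symm

theorem center_of {g : G3 F} (h : ∃ c : F, g.1 = c • 1) : g ∈ Subgroup.center (G3 F) := by
  obtain ⟨c, hc⟩ := h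
  rw [Subgroup.mem_center_iff]
  intro k
  apply Subtype.ext
  show k.1 * g.1 = g.1 * k.1
  rw [hc, Matrix.mul_smul, Matrix.smul_mul, Matrix.mul_one, Matrix.one_mul]

theorem ns_of_order {g : G3 F} {n : ℕ} (hn : n = 5 ∨ n = 7) (hg : orderOf g = n) (c : F) : g.1 ≠ c • 1 := by
  intro hgc
  have h1 : c ^ 3 = 1 := by
    have := g.2
    rw [hgc, Matrix.det_smul, Matrix.det_one, mul_one, Fintype.card_fin] at this
    exact this
  have h2 : g ^ 3 = 1 := by
    apply Subtype.ext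
    show (g ^ 3).1 = 1
    have : (g ^ 3).1 = g.1 ^ 3 := by simp
    rw [this, hgc, smul_pow, h1, one_pow, one_smul]
  have h3 := orderOf_dvd_of_pow_eq_one h2
  rw [hg] at h3
  rcases hn with rfl | rfl <;> omega

/-- the powers of the companion matrix applied to the first basis vector -/
theorem comp_mulVec (q r x y z : F) : comp q r *ᵥ ![x, y, z] = ![z, x + q * z, y + r * z] := by
  ext i
  fin_cases i <;> simp [comp, Matrix.mulVec, dotProduct, Fin.sum_univ_three]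

theorem cls3 (hF : Fintype.card F = 4) {w : F} (hw : w ^ 2 + w + 1 = 0) (g : G3 F) (h : orderOf g = 3)
    (hc : g ∉ Subgroup.center (G3 F)) : ∃ k : G3 F, (k * g * k⁻¹).1 = !![1, 0, 0; 0, w, 0; 0, 0, w ^ 2] := by
  have t0 := two0 hF
  have w2 := w_sq hF hw
  have w3 : w ^ 3 = 1 := by linear_combination (w - 1) * hw
  have hg : g ^ 3 = 1 := by
    have := pow_orderOf_eq_one g
    rwa [h] at this
  obtain ⟨P, q, r, hP, h1, h2⟩ := exists_comp hF (Or.inl rfl) hg fun c hgc => hc (center_of ⟨c, hgc⟩)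
  have e1 : comp q r *ᵥ (comp q r *ᵥ (comp q r *ᵥ ![1, 0, 0])) = ![1, 0, 0] := by
    rw [Matrix.mulVec_mulVec, Matrix.mulVec_mulVec, ← pow_two, ← pow_succ, h2, Matrix.one_mulVec]
  rw [comp_mulVec, comp_mulVec, comp_mulVec] at e1
  have hq : q = 0 := by simpa using congrFun e1 1
  have hr : r = 0 := by simpa using congrFun e1 2
  let y : G3 F := ⟨!![1, 0, 0; 0, w, 0; 0, 0, w ^ 2], by
    rw [Matrix.det_fin_three]
    simp
    linear_combination w3⟩
  have hR : (!![1, 1, 1; 1, w, w ^ 2; 1, w ^ 2, w] : M3 F).det ≠ 0 := by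
    have : (!![1, 1, 1; 1, w, w ^ 2; 1, w ^ 2, w] : M3 F).det = 1 := by
      rw [Matrix.det_fin_three]
      simp
      linear_combination (-w) * w3 + 3 * w2 + t0
    rw [this]
    exact one_ne_zero
  have w4 : w ^ 4 = w := by linear_combination w * w3
  have h3 : y.1 * !![1, 1, 1; 1, w, w ^ 2; 1, w ^ 2, w] = !![1, 1, 1; 1, w, w ^ 2; 1, w ^ 2, w] * comp q r := by
    rw [hq, hr]
    show !![1, 0, 0; 0, w, 0; 0, 0, w ^ 2] * _ = _
    ext i j
    fin_cases i <;> fin_cases j <;> simp [comp, Matrix.mul_apply, Fin.sum_univ_three]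
    · ring
    · linear_combination w3
    · linear_combination w4
    · linear_combination w3
  obtain ⟨k, hk⟩ := conj_of (g := g) (y := y) hP hR h1 h3 (fun δ _ => ⟨!![δ, 0, 0; 0, 1, 0; 0, 0, 1], by
    show _ * !![1, 0, 0; 0, w, 0; 0, 0, w ^ 2] = !![1, 0, 0; 0, w, 0; 0, 0, w ^ 2] * _
    ext i j
    fin_cases i <;> fin_cases j <;> simp [Matrix.mul_apply, Fin.sum_univ_three], by
    rw [Matrix.det_fin_three]
    simp⟩)
  exact ⟨k, by rw [hk]⟩

theorem cls5 (hF : Fintype.card F = 4) {w : F} (hw : w ^ 2 + w + 1 = 0) (g : G3 F) (h : orderOf g = 5) :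
    ∃ (k y : G3 F) (m : ℕ), y.1 = !![0, 1, 0; 1, w, 0; 0, 0, 1] ∧ k * g * k⁻¹ = y ^ m ∧ ∃ n : ℕ, (k * g * k⁻¹) ^ n = y := by
  have t0 := two0 hF
  have w2 := w_sq hF hw
  have w3 : w ^ 3 = 1 := by linear_combination (w - 1) * hw
  have w4 : w ^ 4 = w := by linear_combination w * w3
  have hg : g ^ 5 = 1 := by
    have := pow_orderOf_eq_one g
    rwa [h] at this
  obtain ⟨P, q, r, hP, h1, h2⟩ := exists_comp hF (Or.inr (Or.inl rfl)) hg (ns_of_order (Or.inl rfl) h)
  have e1 : comp q r *ᵥ (comp q r *ᵥ (comp q r *ᵥ (comp q r *ᵥ (comp q r *ᵥ ![1, 0, 0])))) = ![1, 0, 0] := by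
    simp only [Matrix.mulVec_mulVec]
    rw [← pow_two, ← pow_succ', ← pow_succ', ← pow_succ', h2, Matrix.one_mulVec]
  simp only [comp_mulVec] at e1
  have f0 := congrFun e1 0
  have f1 := congrFun e1 1
  have f2 := congrFun e1 2
  simp at f0 f1 f2
  have hqr : q = r := by linear_combination (-q) * f0 + f1 - r * t0
  rw [hqr] at f0 f1 f2 h1
  have hr : (r - w) * (r - w ^ 2) = 0 := by linear_combination f0 + w3 - r * w2 + (1 - r - r * w) * t0
  let y : G3 F := ⟨!![0, 1, 0; 1, w, 0; 0, 0, 1], by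
    rw [Matrix.det_fin_three]
    simp
    exact neg_eq hF 1⟩
  have hy : y.1 = !![0, 1, 0; 1, w, 0; 0, 0, 1] := rfl
  have hy2 : (y ^ 2).1 = !![1, w, 0; w, w, 0; 0, 0, 1] := by
    have : (y ^ 2).1 = y.1 * y.1 := by rw [← pow_two]; simp
    rw [this, hy]
    ext i j
    fin_cases i <;> fin_cases j <;> simp [Matrix.mul_apply, Fin.sum_univ_three]
    linear_combination w2 + t0
  have hy5 : y ^ 5 = 1 := by
    apply Subtype.ext
    have : (y ^ 5).1 = (y ^ 2).1 * (y ^ 2).1 * y.1 := by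
      show _ = ((y ^ 2) * (y ^ 2) * y).1
      rw [← pow_add, ← pow_succ]
    rw [this, hy2, hy]
    ext i j
    fin_cases i <;> fin_cases j <;> simp [Matrix.mul_apply, Fin.sum_univ_three]
    · linear_combination w2 + w * t0
    · linear_combination w3 + (1 + w ^ 2) * t0
    · linear_combination w ^ 2 * t0
    · linear_combination w2 + (w + w ^ 3) * t0
  have hZ : ∀ δ : F, (!![1, 0, 0; 0, 1, 0; 0, 0, δ] : M3 F) * y.1 = y.1 * !![1, 0, 0; 0, 1, 0; 0, 0, δ] := fun δ => by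
    rw [hy]
    ext i j
    fin_cases i <;> fin_cases j <;> simp [Matrix.mul_apply, Fin.sum_univ_three]
  have hZ2 : ∀ δ : F, (!![1, 0, 0; 0, 1, 0; 0, 0, δ] : M3 F) * (y ^ 2).1 = (y ^ 2).1 * !![1, 0, 0; 0, 1, 0; 0, 0, δ] :=
    fun δ => by
    rw [hy2]
    ext i j
    fin_cases i <;> fin_cases j <;> simp [Matrix.mul_apply, Fin.sum_univ_three]
  have hdZ : ∀ δ : F, (!![1, 0, 0; 0, 1, 0; 0, 0, δ] : M3 F).det = δ := fun δ => by
    rw [Matrix.det_fin_three]
    simp
  rcases mul_eq_zero.1 hr with h3 | h3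
  · have hrw : r = w := sub_eq_zero.1 h3
    rw [hrw] at h1
    have hR : (!![1, 1, w; 0, w, 1; 1, 1, 1] : M3 F).det ≠ 0 := by
      rw [Matrix.det_fin_three]
      simp
      intro h
      exact one_ne_zero (α := F) (by linear_combination -h - w2)
    have h4 : (y ^ 2).1 * !![1, 1, w; 0, w, 1; 1, 1, 1] = !![1, 1, w; 0, w, 1; 1, 1, 1] * comp w w := by
      rw [hy2]
      ext i j
      fin_cases i <;> fin_cases j <;> simp [comp, Matrix.mul_apply, Fin.sum_univ_three]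
      · linear_combination w2 + t0
      · linear_combination -w2 - t0
      · linear_combination w2 + w * t0
      · linear_combination (-w) * t0
    obtain ⟨k, hk⟩ := conj_of hP hR h1 h4 (fun δ _ => ⟨_, hZ2 δ, hdZ δ⟩)
    exact ⟨k, y, 2, rfl, hk, 3, by rw [hk, ← pow_mul, pow_succ, hy5, one_mul]⟩
  · have hrw : r = w ^ 2 := sub_eq_zero.1 h3
    rw [hrw] at h1
    have hR : (!![1, 0, 1; 0, 1, w; 1, 1, 1] : M3 F).det ≠ 0 := by
      rw [Matrix.det_fin_three]
      simp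
      intro h
      rw [h] at w3
      simp at w3
    have h4 : y.1 * !![1, 0, 1; 0, 1, w; 1, 1, 1] = !![1, 0, 1; 0, 1, w; 1, 1, 1] * comp (w ^ 2) (w ^ 2) := by
      rw [hy]
      ext i j
      fin_cases i <;> fin_cases j <;> simp [comp, Matrix.mul_apply, Fin.sum_univ_three]
      · linear_combination -w2 - t0
      · linear_combination -w3
      · linear_combination (-w ^ 2) * t0
    obtain ⟨k, hk⟩ := conj_of hP hR h1 h4 (fun δ _ => ⟨_, hZ δ, hdZ δ⟩)
    exact ⟨k, y, 1, rfl, by rw [hk, pow_one], 1, by rw [hk, pow_one]⟩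

end Cfsg.Agent.H745.L34
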