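import Cfsg.Agent.H745.L34.Cls

/-!
# S5917 (helper745): the elements of order 7 of `SL₃(4)`
-/

set_option autoImplicit false

namespace Cfsg.Agent.H745.L34

open Matrix Cfsg.Agent.H691.L34

variable {F : Type} [Field F] [Fintype F]

theorem cls7 (hF : Fintype.card F = 4) (g : G3 F) (h : orderOf g = 7) :
    ∃ (k y : G3 F) (m : ℕ), y.1 = !![0, 0, 1; 1, 0, 1; 0, 1, 0] ∧ k * g * k⁻¹ = y ^ m ∧ ∃ n : ℕ, (k * g * k⁻¹) ^ n = y := by
  have t0 := two0 hF
  obtain ⟨w, hw⟩ := exists_w hF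
  have w2 := w_sq hF hw
  have w3 : w ^ 3 = 1 := by linear_combination (w - 1) * hw
  have w4 : w ^ 4 = w := by linear_combination w * w3
  have hg : g ^ 7 = 1 := by
    have := pow_orderOf_eq_one g
    rwa [h] at this
  obtain ⟨P, q, r, hP, h1, h2⟩ := exists_comp hF (Or.inr (Or.inr rfl)) hg (ns_of_order (Or.inr rfl) h)
  have e1 : comp q r *ᵥ (comp q r *ᵥ (comp q r *ᵥ (comp q r *ᵥ (comp q r *ᵥ (comp q r *ᵥ (comp q r *ᵥ ![1, 0, 0])))))) =
      ![1, 0, 0] := by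
    simp only [Matrix.mulVec_mulVec]
    rw [← pow_two, ← pow_succ', ← pow_succ', ← pow_succ', ← pow_succ', ← pow_succ', h2, Matrix.one_mulVec]
  simp only [comp_mulVec] at e1
  have f0 := congrFun e1 0
  have f1 := congrFun e1 1
  have f2 := congrFun e1 2
  simp at f0 f1 f2
  have g1 : q = 1 + r ^ 3 := by linear_combination f1 - q * f0 - (1 + r ^ 3 + q * r) * t0
  have g2 : r ^ 2 + q * r ^ 3 + r = 0 := by linear_combination f2 - r * f0 - (q + q ^ 2 * r) * t0
  have hqr : (q = 1 ∧ r = 0) ∨ (q = 0 ∧ r = 1) := by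
    by_cases hr : r = 0
    · left
      rw [hr] at g1
      exact ⟨by linear_combination g1, hr⟩
    · right
      have r3 := pow3 hF hr
      have hq : q = 0 := by linear_combination g1 + r3 + t0
      refine ⟨hq, ?_⟩
      have h3 : r * (r + 1) = 0 := by linear_combination g2 - hq * r ^ 3
      have h4 := (mul_eq_zero.1 h3).resolve_left hr
      linear_combination h4 - t0
  let y : G3 F := ⟨!![0, 0, 1; 1, 0, 1; 0, 1, 0], by
    rw [Matrix.det_fin_three]
    simp⟩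
  have hy : y.1 = !![0, 0, 1; 1, 0, 1; 0, 1, 0] := rfl
  have hy3 : (y ^ 3).1 = !![1, 0, 1; 1, 1, 1; 0, 1, 1] := by
    have : (y ^ 3).1 = y.1 * y.1 * y.1 := by
      show _ = (y * y * y).1
      rw [← pow_two, ← pow_succ]
    rw [this, hy]
    ext i j
    fin_cases i <;> fin_cases j <;> simp [Matrix.mul_apply, Fin.sum_univ_three]
  have hy7 : y ^ 7 = 1 := by
    apply Subtype.ext
    have : (y ^ 7).1 = (y ^ 3).1 * (y ^ 3).1 * y.1 := by
      show _ = ((y ^ 3) * (y ^ 3) * y).1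
      rw [← pow_add, ← pow_succ]
    rw [this, hy3, hy]
    ext i j
    fin_cases i <;> fin_cases j <;> simp [Matrix.mul_apply, Fin.sum_univ_three]
    all_goals first | linear_combination t0 | linear_combination 2 * t0
  have hZ : ∀ δ : F, δ ≠ 0 → ∃ a b : F, (a • (1 : M3 F) + b • y.1).det = δ := fun δ hδ => by
    have hd : ∀ a b : F, (a • (1 : M3 F) + b • y.1).det = a ^ 3 - a * b ^ 2 + b ^ 3 := fun a b => by
      rw [hy, Matrix.det_fin_three]
      simp
      ring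
    rcases F_cases hF hw δ hδ with h3 | h3 | h3
    · exact ⟨1, 0, by rw [hd, h3]; ring⟩
    · exact ⟨1, w ^ 2, by rw [hd, h3]; linear_combination (w ^ 3 + 1 - w) * w3 + t0 - w * t0⟩
    · exact ⟨1, w, by rw [hd, h3]; linear_combination w3 + t0 - w ^ 2 * t0⟩
  have hcm : ∀ (m : ℕ) (a b : F), (a • (1 : M3 F) + b • y.1) * (y ^ m).1 = (y ^ m).1 * (a • (1 : M3 F) + b • y.1) :=
    fun m a b => by
    have h5 : y.1 * (y ^ m).1 = (y ^ m).1 * y.1 := by
      show (y * y ^ m).1 = (y ^ m * y).1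
      rw [← pow_succ', pow_succ]
    rw [Matrix.add_mul, Matrix.mul_add, Matrix.smul_mul, Matrix.smul_mul, Matrix.mul_smul, Matrix.mul_smul, h5,
      Matrix.one_mul, Matrix.mul_one]
  rcases hqr with ⟨hq, hr⟩ | ⟨hq, hr⟩
  · rw [hq, hr] at h1
    have h4 : (y ^ 1).1 * (1 : M3 F) = 1 * comp 1 0 := by
      rw [pow_one, Matrix.mul_one, Matrix.one_mul]
      rfl
    obtain ⟨k, hk⟩ := conj_of hP (by rw [Matrix.det_one]; exact one_ne_zero) h1 h4 (fun δ hδ => by
      obtain ⟨a, b, hab⟩ := hZ δ hδ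
      exact ⟨_, hcm 1 a b, hab⟩)
    exact ⟨k, y, 1, rfl, hk, 1, by rw [hk, pow_one, pow_one]⟩
  · rw [hq, hr] at h1
    have hR : (!![1, 1, 1; 0, 1, 0; 0, 0, 1] : M3 F).det ≠ 0 := by
      rw [Matrix.det_fin_three]
      simp
    have h4 : (y ^ 3).1 * !![1, 1, 1; 0, 1, 0; 0, 0, 1] = !![1, 1, 1; 0, 1, 0; 0, 0, 1] * comp 0 1 := by
      rw [hy3]
      ext i j
      fin_cases i <;> fin_cases j <;> simp [comp, Matrix.mul_apply, Fin.sum_univ_three]
      all_goals linear_combination t0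
    obtain ⟨k, hk⟩ := conj_of hP hR h1 h4 (fun δ hδ => by
      obtain ⟨a, b, hab⟩ := hZ δ hδ
      exact ⟨_, hcm 3 a b, hab⟩)
    exact ⟨k, y, 3, rfl, hk, 5, by rw [hk, ← pow_mul, show 3 * 5 = 7 * 2 + 1 from rfl, pow_succ, pow_mul, hy7, one_pow, one_mul]⟩

end Cfsg.Agent.H745.L34
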